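import Cfsg.Agent.H973.RG.Ree
import Cfsg.Agent.H973.RG.Ix
import Cfsg.Agent.H147.Fpr.He
import Cfsg.Agent.H19.Odd.HeEl7
import Cfsg.Agent.H436.HeFive
import Cfsg.Agent.H868.CopHe
import Cfsg.Agent.H30.OZ.HeMin
import Cfsg.Agent.KFacts.He.Outer

/-!
# Regular cycles (S3509): the Held group (helper973)

Bounds for the fixed point ratios of the elements of odd prime order (words in the seven generators), `m = 51`:
* 2B, 3B : Ree's inequality for the generating pair `U`, `V` of orders 2, 3 with product of order 7;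
* 3A : acts without fixed points on a group of order 16 with all involutions in 2B;
* 5 : a generating pair of orders 5, 2 with product of order 8;
* 7 : generating pairs of elements of the same class of cyclic groups of order 7 with product of order 3;
* 17 : the order of the centraliser.
The involutions, inner or outer, invert an element of odd prime order.
-/

set_option autoImplicit false
set_option maxRecDepth 100000
open Cfsg

namespace Cfsg.Agent.H973.RG.He

open Subgroup Cfsg.Agent.H106.RC Cfsg.Agent.H345.RG Cfsg.Agent.H940.Eng Cfsg.Agent.H940.Eng.D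
open Cfsg.Spor.He (Gen)
open Cfsg.Agent.SporadicB.HePerm Cfsg.Agent.FixBN.HeStab Cfsg.Agent.KFacts.He.Lv Cfsg.Agent.CpAutHe.Cnt
open Cfsg.Agent.H547.SelfCent.HeRow (ne_one_of_act)
open Cfsg.Agent.H147.Fpr (dvd_card_of_mem)
open Cfsg.Agent.H19.Odd.HeEl (pow_of_chk comm_of_chk conj_of_chk U7 V7)
open Cfsg.Agent.H19.Odd.HeCnt (XA XB XC)

abbrev G : Type := Cfsg.Spor.He

/-! ### the minimal index -/

/-- from the minimal degree -/
theorem index_ge {H : Subgroup G} (hH : H ≠ ⊤) : 42 ≤ H.index := by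
  classical
  have := H147.Fpr.He.finG
  have := H147.Fpr.He.simpleG
  have hft : Fintype (G ⧸ H) := Fintype.ofFinite _
  let ρ : Representation ℂ G ((G ⧸ H) → ℂ) := {
    toFun := fun g => LinearMap.funLeft ℂ ℂ (fun x => g⁻¹ • x)
    map_one' := by
      refine LinearMap.ext fun f => funext fun x => ?_
      rw [LinearMap.funLeft_apply, inv_one, one_smul]
      rfl
    map_mul' := fun g k => by
      refine LinearMap.ext fun f => funext fun x => ?_
      rw [Module.End.mul_apply, LinearMap.funLeft_apply, LinearMap.funLeft_apply, LinearMap.funLeft_apply, mul_inv_rev,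
        mul_smul] }
  have hfr : Module.finrank ℂ ((G ⧸ H) → ℂ) = H.index := by
    rw [Module.finrank_fintype_fun_eq_card, Subgroup.index_eq_card, Nat.card_eq_fintype_card]
  rw [← hfr]
  refine H30.OZ.HeMin.minDeg _ ρ ?_
  obtain ⟨z, hz⟩ : ∃ z : G, z ≠ 1 := exists_ne 1
  obtain ⟨x, hgx⟩ := H394.SqSporBase.exists_moved hH hz
  refine ⟨z, fun h1 => hgx ?_⟩
  have h2 : ρ z (Pi.single x 1) (z • x) = (Pi.single x 1 : (G ⧸ H) → ℂ) (z • x) := by rw [h1]; rfl
  have h3 : ρ z (Pi.single x 1) (z • x) = (Pi.single x 1 : (G ⧸ H) → ℂ) (z⁻¹ • z • x) := rfl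
  rw [h3, inv_smul_smul, Pi.single_eq_same] at h2
  by_contra hcon
  rw [Pi.single_eq_of_ne hcon] at h2
  exact one_ne_zero h2

theorem minIx (B : Base) : MinIx G 51 := by
  intro H hH
  rcases minIx_of_check_ex (H147.Fpr.He.ctx B) [] (fun d hd => absurd hd List.not_mem_nil) 20 51 [34]
    (by decide +kernel) H hH with h | h
  · exact h
  · rw [List.mem_singleton] at h
    have := index_ge hH
    omega

/-! ### generating pairs -/

/-- a word in two words -/
def w2 (X Y : List Gen) : List Bool → List Gen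
  | [] => []
  | b :: l => (bif b then Y else X) ++ w2 X Y l

theorem w2_mem {X Y : List Gen} (l : List Bool) : wd (w2 X Y l) ∈ closure ({wd X, wd Y} : Set G) := by
  induction l with
  | nil => rw [w2, wd_nil]; exact one_mem _
  | cons b l ih =>
    rw [w2, wd_append]
    refine mul_mem ?_ ih
    cases b
    · exact subset_closure (Set.mem_insert _ _)
    · exact subset_closure (Set.mem_insert_of_mem _ rfl)

theorem gen_of (B : Base) {X Y : List Gen} (l17 l7 : List Bool) (i17 i7 : Fin 2058)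
    (h17 : chkB (pw (w2 X Y l17) 17) [] = true) (n17 : Nat.beq (act (w2 X Y l17) i17) i17 = false)
    (h7 : chkB (pw (w2 X Y l7) 7) [] = true) (n7 : Nat.beq (act (w2 X Y l7) i7) i7 = false) :
    closure ({wd X, wd Y} : Set G) = ⊤ := by
  have := H147.Fpr.He.finG
  refine H147.Fpr.He.top_of B ?_ ?_
  · refine dvd_card_of_mem (m := 1) (w2_mem l17) (by norm_num) ?_ ?_
    · rw [one_mul]
      exact pow_of_chk h17
    · rw [pow_one]
      exact ne_one_of_act i17 n17
  · refine dvd_card_of_mem (m := 1) (w2_mem l7) (by norm_num) ?_ ?_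
    · rw [one_mul]
      exact pow_of_chk h7
    · rw [pow_one]
      exact ne_one_of_act i7 n7

theorem order_of {W : List Gen} {p : ℕ} (hp : p.Prime) (h : chkB (pw W p) [] = true) (i : Fin 2058)
    (hn : Nat.beq (act W i) i = false) : orderOf (wd W) = p := by
  have : Fact p.Prime := ⟨hp⟩
  exact orderOf_eq_prime (pow_of_chk h) (ne_one_of_act i hn)

theorem zpowers_of_conj {g u v : G} {k p : ℕ} (hp : p.Prime) (hu : orderOf u = p) (hk : ¬ p ∣ k)
    (h : g * u ^ k * g⁻¹ = v) : zpowers (g⁻¹ * v * g⁻¹⁻¹) = zpowers u := by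
  have hfin : Finite (zpowers u) := by
    apply Nat.finite_of_card_ne_zero
    rw [Nat.card_zpowers, hu]
    exact hp.ne_zero
  have h1 : g⁻¹ * v * g⁻¹⁻¹ = u ^ k := by
    rw [← h]; group
  rw [h1]
  apply eq_of_le_of_card_ge (zpowers_le.2 (pow_mem (mem_zpowers u) k))
  rw [Nat.card_zpowers, Nat.card_zpowers, hu, orderOf_pow' u (by rintro rfl; exact hk (dvd_zero _)), hu,
    (Nat.Coprime.gcd_eq_one ((Nat.Prime.coprime_iff_not_dvd hp).2 hk)), Nat.div_one]

/-! ### the bounds -/

def b2 : ℚ := 2 * (1 + 2 / 51 - 1 / 2 - 1 / 3 - 1 / 7)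
def b3 : ℚ := (1 + 15 * b2) / 16
def b5 : ℚ := (1 + 2 / 51 - 1 / 5 - 1 / 2 - 1 / 8) * (5 / 4)
def b7 : ℚ := (1 + 2 / 51 - 2 / 7 - 1 / 3) * (7 / 12)

theorem m51 : 0 < 51 := by norm_num

theorem fbU (B : Base) : FB G (wd H147.Fpr.He.U) b2 := by
  have := H147.Fpr.He.finG
  have h := FB.ree_left m51 (minIx B) Nat.prime_two Nat.prime_three H147.Fpr.He.oU H147.Fpr.He.oV (d := 7)
    (by norm_num) (by rw [← H147.Fpr.He.oUV]; exact pow_orderOf_eq_one _) (H147.Fpr.He.genUV B)
  exact h.mono (by norm_num [b2])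

theorem fbV (B : Base) : FB G (wd H147.Fpr.He.V) b3 := by
  have := H147.Fpr.He.finG
  have h := FB.ree_right m51 (minIx B) Nat.prime_two Nat.prime_three H147.Fpr.He.oU H147.Fpr.He.oV (d := 7)
    (by norm_num) (by rw [← H147.Fpr.He.oUV]; exact pow_orderOf_eq_one _) (H147.Fpr.He.genUV B)
  exact h.mono (by norm_num [b3, b2])

theorem fbXB (B : Base) : FB G (wd XB) b3 := by
  have h := (fbV B).conj (wd [.c])
  have e : wd [.c] * wd H147.Fpr.He.V * (wd [.c])⁻¹ = wd XB := conj_of_chk (by decide +kernel)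
  rwa [e] at h

/-! ### the class 2B and the group of order 16 -/

def gU : List Gen := [.g, .c, .d, .f, .e, .b, .c, .d, .c, .d, .f, .a, .b, .c]

theorem fbD (B : Base) : FB G (wd [.d]) b2 := by
  refine (fbU B).isConj (IsConj.symm (isConj_iff.2 ⟨wd gU, ?_⟩))
  exact conj_of_chk (by decide +kernel)

def Q1 : List Gen := [.d, .e, .c, .d, .g, .d, .e, .c, .d]
def Q2 : List Gen := [.d, .e, .d, .e, .c, .d, .g, .d, .e, .c, .d, .e, .d]
def Q3 : List Gen := [.c, .b, .d, .f, .c, .d, .g, .e, .d, .f, .b, .c, .d, .b, .c]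
def Q4 : List Gen := [.d, .e, .c, .b, .d, .f, .c, .d, .g, .e, .d, .f, .b, .c, .d, .b, .c, .e, .d]

theorem sq_of {W : List Gen} (h : chkB (W ++ W) [] = true) : wd W * wd W = 1 := by
  have := eq_of_chkB h
  rwa [wd_append, wd_nil] at this

/-- the 15 involutions are conjugate to `d` -/
theorem conj16 : ∀ a b c d : ℕ, a < 2 → b < 2 → c < 2 → d < 2 → ¬ (a = 0 ∧ b = 0 ∧ c = 0 ∧ d = 0) →
    ∃ g : G, g * wd [.d] * g⁻¹ = wd Q1 ^ a * wd Q2 ^ b * (wd Q3 ^ c * wd Q4 ^ d) := by
  intro a b c d ha hb hc hd h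
  interval_cases a <;> interval_cases b <;> interval_cases c <;> interval_cases d <;>
    simp only [pow_zero, pow_one, one_mul, mul_one]
  · exact absurd ⟨rfl, rfl, rfl, rfl⟩ h
  · exact ⟨wd [.f, .e, .c, .d, .g, .b, .c, .d, .f, .e, .d, .b, .c, .d, .b, .c], conj_of_chk (by decide +kernel)⟩
  · exact ⟨wd [.c, .d, .b, .c, .d, .g, .f, .d, .c, .d, .a, .b, .c, .d, .c], conj_of_chk (by decide +kernel)⟩
  · exact ⟨wd [.d, .f, .c, .d, .g, .b, .c, .d, .f, .e, .d, .b, .c, .d, .b, .c], by simp only [← wd_append]; exact conj_of_chk (g := [.d, .f, .c, .d, .g, .b, .c, .d, .f, .e, .d, .b, .c, .d, .b, .c]) (v := [.d]) (w := (Q3 ++ Q4)) (by decide +kernel)⟩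
  · exact ⟨wd [.e, .d, .g, .c], conj_of_chk (by decide +kernel)⟩
  · exact ⟨wd [.c, .d, .b, .c, .d, .g, .e, .d, .c, .d, .f, .e, .b, .c, .d, .c], by simp only [← wd_append]; exact conj_of_chk (g := [.c, .d, .b, .c, .d, .g, .e, .d, .c, .d, .f, .e, .b, .c, .d, .c]) (v := [.d]) (w := (Q2 ++ Q4)) (by decide +kernel)⟩
  · exact ⟨wd [.b, .c, .d, .b, .c, .d, .f, .d, .g, .d, .b, .c, .d, .b, .c], by simp only [← wd_append]; exact conj_of_chk (g := [.b, .c, .d, .b, .c, .d, .f, .d, .g, .d, .b, .c, .d, .b, .c]) (v := [.d]) (w := (Q2 ++ Q3)) (by decide +kernel)⟩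
  · exact ⟨wd [.d, .f, .c, .d, .g, .a, .b, .c, .d, .f, .e, .d, .b, .c, .d, .b, .c], by simp only [← wd_append]; exact conj_of_chk (g := [.d, .f, .c, .d, .g, .a, .b, .c, .d, .f, .e, .d, .b, .c, .d, .b, .c]) (v := [.d]) (w := (Q2 ++ (Q3 ++ Q4))) (by decide +kernel)⟩
  · exact ⟨wd [.d, .g, .e, .c], conj_of_chk (by decide +kernel)⟩
  · exact ⟨wd [.f, .e, .c, .d, .g, .a, .b, .c, .d, .f, .e, .d, .b, .c, .d, .b, .c], by simp only [← wd_append]; exact conj_of_chk (g := [.f, .e, .c, .d, .g, .a, .b, .c, .d, .f, .e, .d, .b, .c, .d, .b, .c]) (v := [.d]) (w := (Q1 ++ Q4)) (by decide +kernel)⟩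
  · exact ⟨wd [.a, .b, .c, .d, .b, .c, .d, .f, .d, .g, .d, .b, .c, .d, .b, .c], by simp only [← wd_append]; exact conj_of_chk (g := [.a, .b, .c, .d, .b, .c, .d, .f, .d, .g, .d, .b, .c, .d, .b, .c]) (v := [.d]) (w := (Q1 ++ Q3)) (by decide +kernel)⟩
  · exact ⟨wd [.a, .b, .c, .d, .f, .d, .b, .c, .d, .g, .b, .c, .d, .f, .b, .c], by simp only [← wd_append]; exact conj_of_chk (g := [.a, .b, .c, .d, .f, .d, .b, .c, .d, .g, .b, .c, .d, .f, .b, .c]) (v := [.d]) (w := (Q1 ++ (Q3 ++ Q4))) (by decide +kernel)⟩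
  · exact ⟨wd [.g, .c], by simp only [← wd_append]; exact conj_of_chk (g := [.g, .c]) (v := [.d]) (w := (Q1 ++ Q2)) (by decide +kernel)⟩
  · exact ⟨wd [.d, .e, .b, .c, .d, .b, .c, .d, .f, .d, .g, .d, .b, .c, .d, .b, .c], by simp only [← wd_append]; exact conj_of_chk (g := [.d, .e, .b, .c, .d, .b, .c, .d, .f, .d, .g, .d, .b, .c, .d, .b, .c]) (v := [.d]) (w := ((Q1 ++ Q2) ++ Q4)) (by decide +kernel)⟩
  · exact ⟨wd [.c, .d, .a, .b, .c, .d, .g, .f, .d, .c, .d, .a, .b, .c, .d, .c], by simp only [← wd_append]; exact conj_of_chk (g := [.c, .d, .a, .b, .c, .d, .g, .f, .d, .c, .d, .a, .b, .c, .d, .c]) (v := [.d]) (w := ((Q1 ++ Q2) ++ Q3)) (by decide +kernel)⟩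
  · exact ⟨wd [.b, .c, .d, .f, .d, .b, .c, .d, .g, .b, .c, .d, .f, .b, .c], by simp only [← wd_append]; exact conj_of_chk (g := [.b, .c, .d, .f, .d, .b, .c, .d, .g, .b, .c, .d, .f, .b, .c]) (v := [.d]) (w := ((Q1 ++ Q2) ++ (Q3 ++ Q4))) (by decide +kernel)⟩

theorem fbXA (B : Base) : FB G (wd XA) b3 := by
  have hd1 : (wd [.d] : G) ≠ 1 := ne_one_of_act 2 (by decide +kernel)
  refine FB.fpf16 (q1 := wd Q1) (q2 := wd Q2) (q3 := wd Q3) (q4 := wd Q4) (sq_of (by decide +kernel))
    (sq_of (by decide +kernel)) (sq_of (by decide +kernel)) (sq_of (by decide +kernel)) (comm_of_chk (by decide +kernel))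
    (comm_of_chk (by decide +kernel)) (comm_of_chk (by decide +kernel)) (comm_of_chk (by decide +kernel))
    (comm_of_chk (by decide +kernel)) (comm_of_chk (by decide +kernel)) (conj_of_chk (by decide +kernel)) ?_
    (conj_of_chk (by decide +kernel)) ?_ (fun a b c d ha hb hc hd h h1 => ?_) (fun a b c d ha hb hc hd h => ?_)
  · rw [← wd_append]
    exact conj_of_chk (g := XA) (v := Q2) (w := Q1 ++ Q2) (by decide +kernel)
  · rw [← wd_append]
    exact conj_of_chk (g := XA) (v := Q4) (w := Q3 ++ Q4) (by decide +kernel)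
  · obtain ⟨g, hg⟩ := conj16 a b c d ha hb hc hd h
    rw [h1, mul_inv_eq_one] at hg
    exact hd1 (mul_eq_left.1 hg)
  · obtain ⟨g, hg⟩ := conj16 a b c d ha hb hc hd h
    rw [← hg]
    exact (fbD B).conj g

/-! ### order 5 -/

def Y5 : List Gen := [.f, .a, .d, .c, .g, .b, .d, .c, .d, .c, .d, .b, .g, .c, .d, .a, .f]

theorem fb5 (B : Base) : FB G (wd H436.HeFive.X) b5 := by
  have := H147.Fpr.He.finG
  have hd : (wd H436.HeFive.X * wd Y5) ^ 8 = 1 := by
    rw [← wd_append]
    exact pow_of_chk (by decide +kernel)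
  have h := FB.ree_left m51 (minIx B) Nat.prime_five Nat.prime_two H436.HeFive.orderX
    (order_of (W := Y5) Nat.prime_two (by decide +kernel) 0 (by decide +kernel)) (d := 8) (by norm_num) hd
    (gen_of B [false, false, true, false, true, false, true] [false, false, true, false, false, true] 0 0 (by decide +kernel) (by decide +kernel) (by decide +kernel) (by decide +kernel))
  exact h.mono (by norm_num [b5])

/-! ### order 7 -/

theorem fb7_of (B : Base) {W g : List Gen} {k : ℕ} (gi : List Gen) (hg : chkB (g ++ gi) [] = true)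
    (hW : orderOf (wd W) = 7) (hk : ¬ 7 ∣ k) (hd : chkB (pw (W ++ (g ++ (pw W k ++ gi))) 3) [] = true)
    (l17 : List Bool) (i17 : Fin 2058) (h17 : chkB (pw (w2 W (g ++ (pw W k ++ gi)) l17) 17) [] = true)
    (n17 : Nat.beq (act (w2 W (g ++ (pw W k ++ gi)) l17) i17) i17 = false) : FB G (wd W) b7 := by
  have := H147.Fpr.He.finG
  have hgi : (wd g)⁻¹ = wd gi := by
    have := eq_of_chkB hg
    rw [wd_append, wd_nil] at this
    exact inv_eq_of_mul_eq_one_right this
  set Y := g ++ (pw W k ++ gi) with hY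
  have hYe : wd g * wd W ^ k * (wd g)⁻¹ = wd Y := by
    rw [hY, wd_append, wd_append, wd_pw, hgi, mul_assoc]
  have hgen : closure ({wd W, wd Y} : Set G) = ⊤ := by
    refine H147.Fpr.He.top_of B ?_ ?_
    · refine dvd_card_of_mem (m := 1) (w2_mem l17) (by norm_num) ?_ ?_
      · rw [one_mul]
        exact pow_of_chk h17
      · rw [pow_one]
        exact ne_one_of_act i17 n17
    · refine dvd_card_of_mem (m := 1) (w := wd W) (subset_closure (Set.mem_insert _ _)) (by norm_num) ?_ ?_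
      · rw [one_mul, ← hW]
        exact pow_orderOf_eq_one _
      · rw [pow_one]
        rintro h
        rw [h, orderOf_one] at hW
        omega
  have h := FB.ree_same m51 (minIx B) (g := (wd g)⁻¹) (by norm_num : Nat.Prime 7) hW
    (zpowers_of_conj (by norm_num) hW hk hYe) (d := 3) (by norm_num) (by
      rw [← wd_append]
      exact pow_of_chk hd) hgen
  exact h.mono (by norm_num [b7])

theorem fb_XC (B : Base) : FB G (wd XC) b7 :=
  fb7_of B (g := [.g, .d, .g, .f]) (k := 5) [.f, .g, .d, .g] (by decide +kernel) (order_of (by norm_num) (by decide +kernel) 0 (by decide +kernel))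
    (by norm_num) (by decide +kernel) [false, false, false, false, true, true] 0 (by decide +kernel) (by decide +kernel)

theorem fb_U7 (B : Base) : FB G (wd U7) b7 :=
  fb7_of B (g := [.e, .d]) (k := 6) [.d, .e] (by decide +kernel) (order_of (by norm_num) (by decide +kernel) 0 (by decide +kernel))
    (by norm_num) (by decide +kernel) [false, false, false, false, true] 0 (by decide +kernel) (by decide +kernel)

theorem fb_V71 (B : Base) : FB G (wd (V7 ++ pw U7 1)) b7 :=
  fb7_of B (g := [.d, .g, .d]) (k := 1) [.d, .g, .d] (by decide +kernel) (order_of (by norm_num) (by decide +kernel) 0 (by decide +kernel))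
    (by norm_num) (by decide +kernel) [false, false, false, false, true] 0 (by decide +kernel) (by decide +kernel)

theorem fb_V72 (B : Base) : FB G (wd (V7 ++ pw U7 2)) b7 :=
  fb7_of B (g := [.f, .c, .g]) (k := 4) [.g, .c, .f] (by decide +kernel) (order_of (by norm_num) (by decide +kernel) 0 (by decide +kernel))
    (by norm_num) (by decide +kernel) [false, false, false, true] 0 (by decide +kernel) (by decide +kernel)

theorem fb_V74 (B : Base) : FB G (wd (V7 ++ pw U7 4)) b7 :=
  fb7_of B (g := [.b, .e]) (k := 1) [.e, .b] (by decide +kernel) (order_of (by norm_num) (by decide +kernel) 0 (by decide +kernel))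
    (by norm_num) (by decide +kernel) [false, false, true] 0 (by decide +kernel) (by decide +kernel)

theorem fb_V76 (B : Base) : FB G (wd (V7 ++ pw U7 6)) b7 :=
  fb7_of B (g := [.e, .b]) (k := 6) [.b, .e] (by decide +kernel) (order_of (by norm_num) (by decide +kernel) 0 (by decide +kernel))
    (by norm_num) (by decide +kernel) [false, false, false, true, false, true, true] 0 (by decide +kernel) (by decide +kernel)

/-! ### all elements -/

theorem three (B : Base) {x : G} (hx : orderOf x = 3) : FB G x b3 := by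
  have h3 : Fact (Nat.Prime 3) := ⟨Nat.prime_three⟩
  have := H147.Fpr.He.finG
  obtain ⟨y, hy, g, hg⟩ := H19.Odd.Heis.reps3 H19.Odd.HeEl.A_pow H19.Odd.HeEl.U3_pow H19.Odd.HeEl.V3_pow
    H19.Odd.HeEl.A_U3 H19.Odd.HeEl.A_V3 H19.Odd.HeEl.U3_V3 (by norm_num) H19.Odd.HeEl.A_ne
    (H19.Odd.HeEl.not_dvd (by decide)) hx
  have key : ∀ {z u t : G}, FB G z b3 → u * t * u⁻¹ = z → FB G t b3 := fun {z u t} hz h =>
    hz.isConj (IsConj.symm (isConj_iff.2 ⟨u, h⟩))
  refine FB.of_zpowers (x := y) (g := g) ?_ hg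
  rcases hy with rfl | rfl | ⟨i, hi, rfl⟩
  · exact fbXA B
  · exact key (fbXA B) H19.Odd.HeEl.g3u
  · interval_cases i
    · rw [pow_zero, mul_one]
      exact key (fbXA B) H19.Odd.HeEl.g3v
    · rw [pow_one, ← wd_append]
      exact key (fbXB B) H19.Odd.HeEl.g3a
    · rw [pow_two, ← wd_append, ← wd_append]
      exact key (fbXB B) H19.Odd.HeEl.g3b

theorem five (B : Base) {x : G} (hx : orderOf x = 5) : FB G x b5 := by
  obtain ⟨u, hu⟩ := H436.HeFive.exists_conj hx
  refine FB.of_zpowers (x := wd H436.HeFive.X) (g := u) (fb5 B) ?_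
  have hfin : Finite (zpowers (wd H436.HeFive.X : G)) := by
    apply Nat.finite_of_card_ne_zero
    rw [Nat.card_zpowers, H436.HeFive.orderX]
    norm_num
  apply eq_of_le_of_card_ge (zpowers_le.2 hu)
  rw [Nat.card_zpowers, Nat.card_zpowers, H436.HeFive.orderX, ← MulAut.conj_apply, MulEquiv.orderOf_eq, hx]

theorem seven (B : Base) {x : G} (hx : orderOf x = 7) : FB G x b7 := by
  have h7 : Fact (Nat.Prime 7) := ⟨by norm_num⟩
  have := H147.Fpr.He.finG
  obtain ⟨y, hy, g, hg⟩ := H19.Odd.Heis.reps3 H19.Odd.HeEl.C_pow H19.Odd.HeEl.U7_pow H19.Odd.HeEl.V7_pow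
    H19.Odd.HeEl.C_U7 H19.Odd.HeEl.C_V7 H19.Odd.HeEl.U7_V7 (by norm_num) H19.Odd.HeEl.C_ne
    (H19.Odd.HeEl.not_dvd (by decide)) hx
  have key : ∀ {z u t : G}, FB G z b7 → u * t * u⁻¹ = z → FB G t b7 := fun {z u t} hz h =>
    hz.isConj (IsConj.symm (isConj_iff.2 ⟨u, h⟩))
  refine FB.of_zpowers (x := y) (g := g) ?_ hg
  rcases hy with rfl | rfl | ⟨i, hi, rfl⟩
  · exact fb_XC B
  · exact fb_U7 B
  · rw [← wd_pw, ← wd_append]
    interval_cases i
    · exact key (fb_XC B) H19.Odd.HeEl.g70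
    · exact fb_V71 B
    · exact fb_V72 B
    · exact key (fb_XC B) H19.Odd.HeEl.g73
    · exact fb_V74 B
    · exact key (fb_XC B) H19.Odd.HeEl.g75
    · exact fb_V76 B

/-! ### the row -/

theorem sqInner : SqInner G := by
  intro α
  obtain ⟨s, hs⟩ := KFacts.He.Outer.sq_inner KFacts.He.Outer.isoHe_refl α
  exact ⟨s, hs.symm⟩

theorem primes {p : ℕ} (hp : p.Prime) (h : p ∣ Nat.card G) : p = 2 ∨ p = 3 ∨ p = 5 ∨ p = 7 ∨ p = 17 := by
  rw [H147.Fpr.He.cardG] at h
  have h := H715.Fpr.valid_mem v_he hp h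
  simpa only [l_he, List.map_cons, List.map_nil, List.mem_cons, List.not_mem_nil, or_false] using h

def β : ℕ → ℚ := fun p => if p = 2 then b3 + 1 / 3 else if p = 3 then b3 else if p = 5 then b5 else if p = 7 then b7
  else 17 / 51

theorem order_eq {p : ℕ} (hp : p.Prime) {x : G} (hx : x ^ p = 1) (hx1 : x ≠ 1) : orderOf x = p := by
  have := Fact.mk hp
  exact orderOf_eq_prime hx hx1

theorem odd_bound (B : Base) (p : ℕ) (hp : p.Prime) (hp2 : p ≠ 2) (hd : p ∣ Nat.card G) : FBA G p (β p) := by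
  have := H147.Fpr.He.finG
  rcases primes hp hd with rfl | rfl | rfl | rfl | rfl
  · exact absurd rfl hp2
  · exact FBA.of_FB sqInner hp hp2 fun x hx hx1 => three B (order_eq hp hx hx1)
  · exact FBA.of_FB sqInner hp hp2 fun x hx hx1 => five B (order_eq hp hx hx1)
  · exact FBA.of_FB sqInner hp hp2 fun x hx hx1 => seven B (order_eq hp hx hx1)
  · have h := FBA.odd (S := G) sqInner m51 (minIx B) (p := 17) (c := 17) hp hp2 fun x hx hx1 =>
      (Nat.le_of_dvd (by norm_num) (H436.HeFive.cent17 x (order_eq hp hx hx1)))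
    exact h.mono (by norm_num [β])

theorem bound (B : Base) (p : ℕ) (hp : p.Prime) (hd : p = 2 ∨ p ∣ Nat.card G) : FBA G p (β p) := by
  by_cases hp2 : p = 2
  · subst hp2
    refine (FBA.two' sqInner β (odd_bound B) (b := b3 + 1 / 3) ?_).mono (by simp [β])
    intro p hp hp2 hd
    rcases primes hp hd with rfl | rfl | rfl | rfl | rfl
    · exact absurd rfl hp2
    all_goals norm_num [β, b2, b3, b5, b7]
  · exact odd_bound B p hp hp2 (hd.resolve_left hp2)

theorem β_nonneg (p : ℕ) : 0 ≤ β p := by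
  unfold β
  split_ifs <;> norm_num [b2, b3, b5, b7]

theorem order_dvd_cent {x y : G} (h : y * x = x * y) : orderOf x ∣ Nat.card (centralizer ({y} : Set G)) := by
  have h1 : x ∈ centralizer ({y} : Set G) := mem_centralizer_singleton_iff.2 h.symm
  rw [← Subgroup.orderOf_mk x h1]
  exact orderOf_dvd_natCard _

/-- elements of two different prime orders commute if their product divides the order of an element -/
theorem exists_two {g : G} {p q : ℕ} (hp : p.Prime) (hq : q.Prime) (h1 : p ∣ orderOf g) (h2 : q ∣ orderOf g) :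
    ∃ x y : G, orderOf x = p ∧ orderOf y = q ∧ x * y = y * x := by
  have := H147.Fpr.He.finG
  have hpos := orderOf_pos g
  have key : ∀ {r : ℕ}, r.Prime → r ∣ orderOf g → orderOf (g ^ (orderOf g / r)) = r := by
    intro r hr hd
    rw [orderOf_pow' g (Nat.div_pos (Nat.le_of_dvd hpos hd) hr.pos).ne', Nat.gcd_eq_right (Nat.div_dvd_of_dvd hd),
      Nat.div_div_self hd hpos.ne']
  exact ⟨_, _, key hp h1, key hq h2, (Commute.pow_pow_self g _ _).eq⟩

theorem noCov (B : Base) : NoCov G := by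
  classical
  have := H147.Fpr.He.finG
  refine noCov_of_FBA sqInner β (bound B) fun s hs _ ⟨g, hg⟩ => ?_
  have hdv : ∀ p ∈ s, p ≠ 2 → p ∣ orderOf g := by
    intro p hp hp2
    rw [hg]
    exact Finset.dvd_prod_of_mem _ (Finset.mem_erase.2 ⟨hp2, hp⟩)
  have hall : ∀ p ∈ s, p = 2 ∨ p = 3 ∨ p = 5 ∨ p = 7 ∨ p = 17 := by
    intro p hp
    rcases (hs p hp).2 with h | h
    · exact Or.inl h
    · exact primes (hs p hp).1 h
  have no57 : ¬ (5 ∈ s ∧ 7 ∈ s) := by
    rintro ⟨h5, h7⟩
    obtain ⟨x, y, hx, hy, hxy⟩ := exists_two Nat.prime_five (by norm_num : Nat.Prime 7) (hdv 5 h5 (by norm_num))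
      (hdv 7 h7 (by norm_num))
    exact H868.CopHe.ne_five_seven x y hx hy hxy
  have no17 : 17 ∈ s → ∀ p ∈ s, p = 2 ∨ p = 17 := by
    intro h17 p hp
    by_contra hcon
    rw [not_or] at hcon
    obtain ⟨x, y, hx, hy, hxy⟩ := exists_two (by norm_num : Nat.Prime 17) (hs p hp).1 (hdv 17 h17 (by norm_num))
      (hdv p hp hcon.1)
    have h1 := order_dvd_cent (x := y) (y := x) hxy
    have h2 := h1.trans (H436.HeFive.cent17 x hx)
    rw [hy] at h2
    exact hcon.2 ((Nat.prime_dvd_prime_iff_eq (hs p hp).1 (by norm_num)).1 (by simpa using h2))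
  have hsub : ∀ t : Finset ℕ, s ⊆ t → ∑ p ∈ t, β p < 1 → ∑ p ∈ s, β p < 1 := fun t h1 h2 =>
    (Finset.sum_le_sum_of_subset_of_nonneg h1 fun p _ _ => β_nonneg p).trans_lt h2
  by_cases h17 : 17 ∈ s
  · refine hsub {2, 17} (fun p hp => ?_) ?_
    · rcases no17 h17 p hp with rfl | rfl <;> simp
    · rw [Finset.sum_pair (by norm_num)]
      norm_num [β, b2, b3]
  by_cases h5 : 5 ∈ s
  · refine hsub {2, 3, 5} (fun p hp => ?_) ?_
    · rcases hall p hp with rfl | rfl | rfl | rfl | rfl
      · simp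
      · simp
      · simp
      · exact absurd ⟨h5, hp⟩ no57
      · exact absurd hp h17
    · rw [Finset.sum_insert (by decide), Finset.sum_pair (by norm_num)]
      norm_num [β, b2, b3, b5]
  · refine hsub {2, 3, 7} (fun p hp => ?_) ?_
    · rcases hall p hp with rfl | rfl | rfl | rfl | rfl
      · simp
      · simp
      · exact absurd hp h5
      · simp
      · exact absurd hp h17
    · rw [Finset.sum_insert (by decide), Finset.sum_pair (by norm_num)]
      norm_num [β, b2, b3, b7]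

end Cfsg.Agent.H973.RG.He

namespace Cfsg.Agent.H973.RG

open Cfsg.Agent.H106.RC

/-- **the row of the Held group** -/
theorem rc_He (B : H940.Eng.Base) {T : Type} [Group T] [Finite T] (h : Spor.IsoHe T) : RC T := by
  have := H147.Fpr.He.finG
  obtain ⟨e⟩ := h
  exact RC.congr e.symm (rc_of_noCov H147.Fpr.He.simpleG (fun hc => H147.Fpr.He.not_comm fun a b => hc.is_comm.comm a b)
    (He.noCov B))

end Cfsg.Agent.H973.RG
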