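import Cfsg.Agent.H973.RG.Tool
import Cfsg.Agent.H147.Fpr.Gen

/-!
# Fixed point ratios from generating triples and from fixed point free action (helper973, S3509)

* `ree_ineq` : `x`, `y` of prime orders `p`, `q`, `(x y) ^ d = 1`, `⟨x, y⟩ = S`:
  `(1 + (p - 1) fpr x) / p + (1 + (q - 1) fpr y) / q + 1 / d ≤ 1 + 2 / m`, `m` the minimal index;
* `FB.ree_left`, `FB.ree_right`, `FB.ree_same` : the consequences for one element;
* `FB.fpf` : `x` acts on an elementary abelian `2`-group `Q` with `u u^x u^(x²) = 1`: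
  `fpr x ≤ (1 + (|Q| - 1) b) / |Q|`, `b` a bound for the elements of `Q`; `FB.fpf16` : four commuting involutions;
* `FBA.of_FB` : from bounds in `S`-sets to bounds in `G`-sets, `S ≤ G ≤ Aut S`, odd primes; `FBA.two'`.
-/

set_option autoImplicit false
open Cfsg

namespace Cfsg.Agent.H973.RG

open MulAction Subgroup Cfsg.Agent.H106.RC Cfsg.Agent.H345.RG Cfsg.Agent.H565.Scott

section ree

variable {S : Type} [Group S] [Finite S]

/-- **Ree's inequality** for two generators of prime orders -/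
theorem ree_ineq {m : ℕ} (hm : 0 < m) (hI : MinIx S m) {x y : S} {p q d : ℕ} (hp : p.Prime) (hq : q.Prime)
    (hx : orderOf x = p) (hy : orderOf y = q) (hd0 : 0 < d) (hd : (x * y) ^ d = 1)
    (hgen : closure ({x, y} : Set S) = ⊤) (Ω : Type) [Finite Ω] [Nonempty Ω] [MulAction S Ω]
    (hE : Env S Ω (⊤ : Subgroup S)) :
    (1 + (p - 1) * fpr Ω x) / p + (1 + (q - 1) * fpr Ω y) / q + 1 / d ≤ 1 + 2 / m := by
  classical
  have := Fintype.ofFinite Ω
  have hfq : Finite (orbitRel.Quotient (⊤ : Subgroup S) Ω) := inferInstance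
  have := Fintype.ofFinite (orbitRel.Quotient (⊤ : Subgroup S) Ω)
  -- representatives of the orbits
  let B : Finset Ω := Finset.univ.image (fun c : orbitRel.Quotient (⊤ : Subgroup S) Ω => Quotient.out c)
  have hB : ∀ w : Ω, ∃ b ∈ B, ∃ g : S, g • b = w := by
    intro w
    refine ⟨Quotient.out (Quotient.mk'' w : orbitRel.Quotient (⊤ : Subgroup S) Ω), Finset.mem_image.2
      ⟨_, Finset.mem_univ _, rfl⟩, ?_⟩
    have h1 : (Quotient.mk'' (Quotient.out (Quotient.mk'' w : orbitRel.Quotient (⊤ : Subgroup S) Ω)) :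
        orbitRel.Quotient (⊤ : Subgroup S) Ω) = Quotient.mk'' w := Quotient.out_eq' _
    have h2 := (Quotient.eq''.1 h1)
    obtain ⟨g, hg⟩ := (show _ ∈ orbit (⊤ : Subgroup S) w from h2)
    refine ⟨(g : S)⁻¹, ?_⟩
    rw [inv_smul_eq_iff]
    exact hg.symm
  have hBc : B.card ≤ nOrb Ω (⊤ : Subgroup S) := by
    refine Finset.card_image_le.trans ?_
    rw [Finset.card_univ, nOrb, Nat.card_eq_fintype_card]
  have h1 := ree B hB (x := x) (y := y) (z := (x * y)⁻¹) (by rw [mul_inv_cancel]) hgen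
  have h2 := Cfsg.Agent.H147.Fpr.rk_prime (Ω := Ω) hp hx
  have h3 := Cfsg.Agent.H147.Fpr.rk_prime (Ω := Ω) hq hy
  have he : orderOf (x * y)⁻¹ ∣ d := by rw [orderOf_inv]; exact orderOf_dvd_of_pow_eq_one hd
  have he0 : 0 < orderOf (x * y)⁻¹ := orderOf_pos _
  have h4 := Cfsg.Agent.H147.Fpr.rk_order (Ω := Ω) (x := (x * y)⁻¹) rfl he0
  have hed : orderOf (x * y)⁻¹ ≤ d := Nat.le_of_dvd hd0 he
  have h5 : m * nOrb Ω (⊤ : Subgroup S) ≤ Nat.card Ω := (hI.big hE).nOrb_le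
  rw [← Nat.card_eq_fintype_card] at h1 h2 h3 h4
  set n := Nat.card Ω with hn
  set e := orderOf (x * y)⁻¹
  have hn0 : (0 : ℚ) < n := by exact_mod_cast (Nat.card_pos : 0 < Nat.card Ω)
  have hp0 : (0 : ℚ) < p := by exact_mod_cast hp.pos
  have hq0 : (0 : ℚ) < q := by exact_mod_cast hq.pos
  have he0' : (0 : ℚ) < e := by exact_mod_cast he0
  have hd0' : (0 : ℚ) < d := by exact_mod_cast hd0
  have hm0 : (0 : ℚ) < m := by exact_mod_cast hm
  have hfx : (Nat.card (fixedBy Ω x) : ℚ) = n * fpr Ω x := by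
    rw [fpr, mul_div_cancel₀ _ hn0.ne']
  have hfy : (Nat.card (fixedBy Ω y) : ℚ) = n * fpr Ω y := by
    rw [fpr, mul_div_cancel₀ _ hn0.ne']
  have h1' : (2 : ℚ) * n ≤ 2 * nOrb Ω (⊤ : Subgroup S) + (rk Ω x + (rk Ω y + rk Ω (x * y)⁻¹)) := by
    have : 2 * n ≤ 2 * nOrb Ω (⊤ : Subgroup S) + (rk Ω x + (rk Ω y + rk Ω (x * y)⁻¹)) := by omega
    exact_mod_cast this
  have h2' : (p : ℚ) * rk Ω x + (n + (p - 1) * (n * fpr Ω x)) ≤ p * n := by
    rw [← hfx]
    have h : (((p * rk Ω x + (n + (p - 1) * Nat.card (fixedBy Ω x)) : ℕ)) : ℚ) ≤ ((p * n : ℕ) : ℚ) := by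
      exact_mod_cast h2
    push_cast [Nat.cast_sub hp.one_lt.le] at h
    exact h
  have h3' : (q : ℚ) * rk Ω y + (n + (q - 1) * (n * fpr Ω y)) ≤ q * n := by
    rw [← hfy]
    have h : (((q * rk Ω y + (n + (q - 1) * Nat.card (fixedBy Ω y)) : ℕ)) : ℚ) ≤ ((q * n : ℕ) : ℚ) := by
      exact_mod_cast h3
    push_cast [Nat.cast_sub hq.one_lt.le] at h
    exact h
  have h4' : (e : ℚ) * rk Ω (x * y)⁻¹ + n ≤ e * n := by exact_mod_cast h4
  have h5' : (m : ℚ) * nOrb Ω (⊤ : Subgroup S) ≤ n := by exact_mod_cast h5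
  -- divide
  have g2 : (rk Ω x : ℚ) ≤ n * (1 - (1 + (p - 1) * fpr Ω x) / p) := by
    have : (rk Ω x : ℚ) ≤ (p * n - (n + (p - 1) * (n * fpr Ω x))) / p := by
      rw [le_div_iff₀ hp0]; linarith
    refine this.trans (le_of_eq ?_)
    field_simp
  have g3 : (rk Ω y : ℚ) ≤ n * (1 - (1 + (q - 1) * fpr Ω y) / q) := by
    have : (rk Ω y : ℚ) ≤ (q * n - (n + (q - 1) * (n * fpr Ω y))) / q := by
      rw [le_div_iff₀ hq0]; linarith
    refine this.trans (le_of_eq ?_)
    field_simp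
  have g4 : (rk Ω (x * y)⁻¹ : ℚ) ≤ n * (1 - 1 / d) := by
    have h6 : (rk Ω (x * y)⁻¹ : ℚ) ≤ (e * n - n) / e := by
      rw [le_div_iff₀ he0']; linarith
    refine h6.trans ?_
    have h7 : ((e : ℚ) * n - n) / e = n * (1 - 1 / e) := by field_simp
    rw [h7]
    refine mul_le_mul_of_nonneg_left ?_ hn0.le
    have h8 : (1 : ℚ) / d ≤ 1 / e := one_div_le_one_div_of_le he0' (by exact_mod_cast hed)
    linarith
  have g5 : (nOrb Ω (⊤ : Subgroup S) : ℚ) ≤ n * (1 / m) := by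
    rw [mul_one_div, le_div_iff₀ hm0]; linarith
  have g6 : (n : ℚ) * 2 ≤ n * (2 * (1 / m) + ((1 - (1 + (p - 1) * fpr Ω x) / p) +
      ((1 - (1 + (q - 1) * fpr Ω y) / q) + (1 - 1 / d)))) := by
    nlinarith [h1', g2, g3, g4, g5]
  have g7 := le_of_mul_le_mul_left g6 hn0
  have g8 : (2 : ℚ) * (1 / m) = 2 / m := by ring
  linarith

omit [Finite S] in
theorem fpr_eq_of_zpowers {Ω : Type} [MulAction S Ω] {x y g : S}
    (h : zpowers (g * y * g⁻¹) = zpowers x) : fpr Ω y = fpr Ω x := by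
  rw [← fpr_conj g y]
  exact fpr_zpow (by rw [← h]; exact mem_zpowers _) (by rw [h]; exact mem_zpowers _)

omit [Finite S] in
theorem FB.of_zpowers {x y g : S} {b : ℚ} (hb : FB S x b) (h : zpowers (g * y * g⁻¹) = zpowers x) : FB S y b :=
  fun Ω _ _ _ hE => by rw [fpr_eq_of_zpowers h]; exact hb Ω hE

theorem FB.ree_left {m : ℕ} (hm : 0 < m) (hI : MinIx S m) {x y : S} {p q d : ℕ} (hp : p.Prime) (hq : q.Prime)
    (hx : orderOf x = p) (hy : orderOf y = q) (hd0 : 0 < d) (hd : (x * y) ^ d = 1)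
    (hgen : closure ({x, y} : Set S) = ⊤) : FB S x ((1 + 2 / m - 1 / p - 1 / q - 1 / d) * (p / (p - 1))) := by
  intro Ω _ _ _ hE
  have h := ree_ineq hm hI hp hq hx hy hd0 hd hgen Ω hE
  have hp0 : (0 : ℚ) < p := by exact_mod_cast hp.pos
  have hp1 : (0 : ℚ) < (p : ℚ) - 1 := by
    have : (1 : ℚ) < p := by exact_mod_cast hp.one_lt
    linarith
  have hq0 : (0 : ℚ) < q := by exact_mod_cast hq.pos
  have hq1 : (0 : ℚ) < (q : ℚ) - 1 := by
    have : (1 : ℚ) < q := by exact_mod_cast hq.one_lt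
    linarith
  have h1 : (1 : ℚ) / q ≤ (1 + (q - 1) * fpr Ω y) / q :=
    div_le_div_of_nonneg_right (by have := mul_nonneg hq1.le (fpr_nonneg (Ω := Ω) y); linarith) hq0.le
  have h2 : (1 + ((p : ℚ) - 1) * fpr Ω x) / p = 1 / p + fpr Ω x * ((p - 1) / p) := by
    field_simp
  have h3 : fpr Ω x * ((p - 1) / p) ≤ 1 + 2 / m - 1 / p - 1 / q - 1 / d := by linarith
  calc fpr Ω x = (fpr Ω x * ((p - 1) / p)) * (p / (p - 1)) := by
        field_simp
    _ ≤ _ := mul_le_mul_of_nonneg_right h3 (div_nonneg hp0.le hp1.le)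

theorem FB.ree_right {m : ℕ} (hm : 0 < m) (hI : MinIx S m) {x y : S} {p q d : ℕ} (hp : p.Prime) (hq : q.Prime)
    (hx : orderOf x = p) (hy : orderOf y = q) (hd0 : 0 < d) (hd : (x * y) ^ d = 1)
    (hgen : closure ({x, y} : Set S) = ⊤) : FB S y ((1 + 2 / m - 1 / p - 1 / q - 1 / d) * (q / (q - 1))) := by
  intro Ω _ _ _ hE
  have h := ree_ineq hm hI hp hq hx hy hd0 hd hgen Ω hE
  have hp0 : (0 : ℚ) < p := by exact_mod_cast hp.pos
  have hp1 : (0 : ℚ) < (p : ℚ) - 1 := by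
    have : (1 : ℚ) < p := by exact_mod_cast hp.one_lt
    linarith
  have hq0 : (0 : ℚ) < q := by exact_mod_cast hq.pos
  have hq1 : (0 : ℚ) < (q : ℚ) - 1 := by
    have : (1 : ℚ) < q := by exact_mod_cast hq.one_lt
    linarith
  have h1 : (1 : ℚ) / p ≤ (1 + (p - 1) * fpr Ω x) / p :=
    div_le_div_of_nonneg_right (by have := mul_nonneg hp1.le (fpr_nonneg (Ω := Ω) x); linarith) hp0.le
  have h2 : (1 + ((q : ℚ) - 1) * fpr Ω y) / q = 1 / q + fpr Ω y * ((q - 1) / q) := by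
    field_simp
  have h3 : fpr Ω y * ((q - 1) / q) ≤ 1 + 2 / m - 1 / p - 1 / q - 1 / d := by linarith
  calc fpr Ω y = (fpr Ω y * ((q - 1) / q)) * (q / (q - 1)) := by
        field_simp
    _ ≤ _ := mul_le_mul_of_nonneg_right h3 (div_nonneg hq0.le hq1.le)

/-- both generators in the same class of cyclic groups -/
theorem FB.ree_same {m : ℕ} (hm : 0 < m) (hI : MinIx S m) {x y g : S} {p d : ℕ} (hp : p.Prime)
    (hx : orderOf x = p) (hxy : zpowers (g * y * g⁻¹) = zpowers x) (hd0 : 0 < d) (hd : (x * y) ^ d = 1)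
    (hgen : closure ({x, y} : Set S) = ⊤) : FB S x ((1 + 2 / m - 2 / p - 1 / d) * (p / (2 * (p - 1)))) := by
  intro Ω _ _ _ hE
  have hy : orderOf y = p := by
    have h1 : Nat.card (zpowers (g * y * g⁻¹)) = Nat.card (zpowers x) := by rw [hxy]
    rw [Nat.card_zpowers, Nat.card_zpowers, hx] at h1
    rw [← h1]
    exact (MulEquiv.orderOf_eq (MulAut.conj g) y).symm
  have h := ree_ineq hm hI hp hp hx hy hd0 hd hgen Ω hE
  rw [fpr_eq_of_zpowers hxy] at h
  have hp0 : (0 : ℚ) < p := by exact_mod_cast hp.pos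
  have hp1 : (0 : ℚ) < (p : ℚ) - 1 := by
    have : (1 : ℚ) < p := by exact_mod_cast hp.one_lt
    linarith
  have h2 : (1 + ((p : ℚ) - 1) * fpr Ω x) / p = 1 / p + fpr Ω x * ((p - 1) / p) := by
    field_simp
  have h3 : fpr Ω x * (2 * (p - 1) / p) ≤ 1 + 2 / m - 2 / p - 1 / d := by
    have e1 : fpr Ω x * (2 * ((p : ℚ) - 1) / p) = 2 * (fpr Ω x * ((p - 1) / p)) := by ring
    have e2 : (2 : ℚ) / p = 2 * (1 / p) := by ring
    rw [h2] at h
    linarith
  calc fpr Ω x = (fpr Ω x * (2 * (p - 1) / p)) * (p / (2 * (p - 1))) := by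
        field_simp
    _ ≤ _ := mul_le_mul_of_nonneg_right h3 (div_nonneg hp0.le (by linarith))

end ree

section fpf

variable {S : Type} [Group S]

/-- fixed points of `x` lie in different orbits of `Q` -/
theorem fpf_inj {Ω : Type} [MulAction S Ω] {x : S} {Q : Subgroup S}
    (h2 : ∀ u ∈ Q, u * u = 1) (hn : ∀ u ∈ Q, x * u * x⁻¹ ∈ Q)
    (h3 : ∀ u ∈ Q, u * (x * u * x⁻¹) * (x * (x * u * x⁻¹) * x⁻¹) = 1) {ω ω' : Ω} (hω : x • ω = ω)
    (hω' : x • ω' = ω') {u : S} (hu : u ∈ Q) (huω : u • ω = ω') : ω' = ω := by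
  have hinv : ∀ a ∈ Q, a⁻¹ = a := fun a ha => inv_eq_of_mul_eq_one_left (h2 a ha)
  have hcomm : ∀ a ∈ Q, ∀ b ∈ Q, a * b = b * a := by
    intro a ha b hb
    have h := hinv _ (mul_mem ha hb)
    rw [mul_inv_rev, hinv a ha, hinv b hb] at h
    exact h.symm
  have hx1 : x⁻¹ • ω = ω := by rw [inv_smul_eq_iff, hω]
  -- `u^x ω = u ω`
  have e1 : (x * u * x⁻¹) • ω = u • ω := by rw [mul_smul, mul_smul, hx1, huω, hω']
  set v := u * (x * u * x⁻¹) with hv
  have hvQ : v ∈ Q := mul_mem hu (hn u hu)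
  have hv1 : v • ω = ω := by
    rw [hv, mul_smul, e1, smul_smul, h2 u hu, one_smul]
  have hv2 : (x * v * x⁻¹) • ω = ω := by rw [mul_smul, mul_smul, hx1, hv1, hω]
  have e2 : x * (x * u * x⁻¹) * x⁻¹ = (x * u * x⁻¹) * (x * v * x⁻¹) := by
    have : x * v * x⁻¹ = (x * u * x⁻¹) * (x * (x * u * x⁻¹) * x⁻¹) := by rw [hv]; group
    rw [this, ← mul_assoc (x * u * x⁻¹) (x * u * x⁻¹), h2 _ (hn u hu), one_mul]
  have h3' := h3 u hu
  rw [e2, ← mul_assoc, mul_assoc u, h2 _ (hn u hu), mul_one] at h3'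
  have h4 : u = x * v * x⁻¹ := by
    have h5 : u⁻¹ = x * v * x⁻¹ := inv_eq_of_mul_eq_one_right h3'
    rwa [hinv u hu] at h5
  rw [← huω, h4, hv2]

/-- **fixed point free action of an element on a `2`-group** -/
theorem FB.fpf {x : S} (Q : Subgroup S) [Finite Q] (h2 : ∀ u ∈ Q, u * u = 1) (hn : ∀ u ∈ Q, x * u * x⁻¹ ∈ Q)
    (h3 : ∀ u ∈ Q, u * (x * u * x⁻¹) * (x * (x * u * x⁻¹) * x⁻¹) = 1) {b : ℚ}
    (hb : ∀ u ∈ Q, u ≠ 1 → FB S u b) : FB S x ((1 + (Nat.card Q - 1) * b) / Nat.card Q) := by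
  classical
  intro Ω _ _ _ hE
  have := Fintype.ofFinite Ω
  have := Fintype.ofFinite Q
  have : Fintype (orbitRel.Quotient Q Ω) := Fintype.ofFinite _
  have hinj : Nat.card (fixedBy Ω x) ≤ Nat.card (orbitRel.Quotient Q Ω) := by
    refine Nat.card_le_card_of_injective (fun w : fixedBy Ω x => (Quotient.mk'' w.1 : orbitRel.Quotient Q Ω)) ?_
    intro a c hac
    obtain ⟨u, hu⟩ := (show a.1 ∈ orbit Q c.1 from Quotient.eq''.1 hac)
    exact Subtype.ext (fpf_inj h2 hn h3 c.2 a.2 u.2 hu)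
  have hburn : ∑ a : Q, Nat.card (fixedBy Ω (a : S)) = Nat.card (orbitRel.Quotient Q Ω) * Nat.card Q := by
    have h := MulAction.sum_card_fixedBy_eq_card_orbits_mul_card_group Q Ω
    rw [← Nat.card_eq_fintype_card, ← Nat.card_eq_fintype_card] at h
    rw [← h]
    refine Finset.sum_congr rfl fun a _ => ?_
    rw [← Nat.card_eq_fintype_card]
    rfl
  have hn0 : (0 : ℚ) < Nat.card Ω := by exact_mod_cast (Nat.card_pos : 0 < Nat.card Ω)
  have hQ0 : (0 : ℚ) < Nat.card Q := by exact_mod_cast (Nat.card_pos : 0 < Nat.card Q)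
  have hsum : ∑ a : Q, (Nat.card (fixedBy Ω (a : S)) : ℚ) ≤ Nat.card Ω * (1 + (Nat.card Q - 1) * b) := by
    rw [← Finset.add_sum_erase _ _ (Finset.mem_univ (1 : Q))]
    have h1 : (Nat.card (fixedBy Ω ((1 : Q) : S)) : ℚ) ≤ Nat.card Ω := by
      exact_mod_cast Nat.card_le_card_of_injective (Subtype.val : fixedBy Ω ((1 : Q) : S) → Ω) Subtype.val_injective
    have h4 : ∀ a ∈ Finset.univ.erase (1 : Q), (Nat.card (fixedBy Ω (a : S)) : ℚ) ≤ Nat.card Ω * b := by
      intro a ha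
      have ha1 : (a : S) ≠ 1 := fun h => (Finset.mem_erase.1 ha).1 (Subtype.ext h)
      have h5 := hb a a.2 ha1 Ω hE
      rw [fpr, div_le_iff₀ hn0] at h5
      linarith
    have h6 := Finset.sum_le_sum h4
    rw [Finset.sum_const, Finset.card_erase_of_mem (Finset.mem_univ _), Finset.card_univ, nsmul_eq_mul,
      ← Nat.card_eq_fintype_card, Nat.cast_sub Nat.card_pos, Nat.cast_one] at h6
    calc _ ≤ (Nat.card Ω : ℚ) + ((Nat.card Q : ℚ) - 1) * (Nat.card Ω * b) := add_le_add h1 h6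
      _ = _ := by ring
  have hb' : (Nat.card (orbitRel.Quotient Q Ω) : ℚ) * Nat.card Q ≤ Nat.card Ω * (1 + (Nat.card Q - 1) * b) := by
    refine le_trans (le_of_eq ?_) hsum
    exact_mod_cast hburn.symm
  rw [fpr, div_le_div_iff₀ hn0 hQ0]
  have h7 : (Nat.card (fixedBy Ω x) : ℚ) ≤ Nat.card (orbitRel.Quotient Q Ω) := by exact_mod_cast hinj
  calc (Nat.card (fixedBy Ω x) : ℚ) * Nat.card Q ≤ Nat.card (orbitRel.Quotient Q Ω) * Nat.card Q :=
        mul_le_mul_of_nonneg_right h7 hQ0.le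
    _ ≤ _ := hb'
    _ = _ := by ring

/-- the homomorphism `m ↦ q ^ m` -/
def c2 (q : S) (h : q * q = 1) : Multiplicative (ZMod 2) →* S where
  toFun m := q ^ (Multiplicative.toAdd m).val
  map_one' := by
    show q ^ (0 : ZMod 2).val = 1
    simp
  map_mul' := by
    intro a b
    have ha : a = Multiplicative.ofAdd 0 ∨ a = Multiplicative.ofAdd 1 := by
      revert a; decide
    have hb : b = Multiplicative.ofAdd 0 ∨ b = Multiplicative.ofAdd 1 := by
      revert b; decide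
    rcases ha with rfl | rfl <;> rcases hb with rfl | rfl
    · show q ^ 0 = q ^ 0 * q ^ 0
      simp
    · show q ^ 1 = q ^ 0 * q ^ 1
      simp
    · show q ^ 1 = q ^ 1 * q ^ 0
      simp
    · show q ^ 0 = q ^ 1 * q ^ 1
      simp [h]

theorem two_cases (a : Multiplicative (ZMod 2)) : a = 1 ∨ a = Multiplicative.ofAdd 1 := by
  revert a
  decide

theorem c2_apply (q : S) (h : q * q = 1) (m : Multiplicative (ZMod 2)) :
    c2 q h m = q ^ (Multiplicative.toAdd m).val := rfl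

theorem c2_comm {q r : S} (hq : q * q = 1) (hr : r * r = 1) (h : Commute q r) (m n : Multiplicative (ZMod 2)) :
    Commute (c2 q hq m) (c2 r hr n) := h.pow_pow _ _

/-- **four commuting involutions** `q₁`, `q₂ = q₁ ^ x`, `q₃`, `q₄ = q₃ ^ x` -/
theorem FB.fpf16 {x q1 q2 q3 q4 : S} (s1 : q1 * q1 = 1) (s2 : q2 * q2 = 1) (s3 : q3 * q3 = 1) (s4 : q4 * q4 = 1)
    (h12 : Commute q1 q2) (h13 : Commute q1 q3) (h14 : Commute q1 q4) (h23 : Commute q2 q3) (h24 : Commute q2 q4)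
    (h34 : Commute q3 q4) (x1 : x * q1 * x⁻¹ = q2) (x2 : x * q2 * x⁻¹ = q1 * q2) (x3 : x * q3 * x⁻¹ = q4)
    (x4 : x * q4 * x⁻¹ = q3 * q4) (hne : ∀ a b c d : ℕ, a < 2 → b < 2 → c < 2 → d < 2 → ¬ (a = 0 ∧ b = 0 ∧ c = 0 ∧ d = 0) →
      q1 ^ a * q2 ^ b * (q3 ^ c * q4 ^ d) ≠ 1) {b : ℚ}
    (hb : ∀ a b' c d : ℕ, a < 2 → b' < 2 → c < 2 → d < 2 → ¬ (a = 0 ∧ b' = 0 ∧ c = 0 ∧ d = 0) →
      FB S (q1 ^ a * q2 ^ b' * (q3 ^ c * q4 ^ d)) b) : FB S x ((1 + 15 * b) / 16) := by
  let V := Multiplicative (ZMod 2)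
  let φ1 : V × V →* S := (c2 q1 s1).noncommCoprod (c2 q2 s2) (c2_comm s1 s2 h12)
  let φ2 : V × V →* S := (c2 q3 s3).noncommCoprod (c2 q4 s4) (c2_comm s3 s4 h34)
  let φ : (V × V) × (V × V) →* S := φ1.noncommCoprod φ2 (fun m n => by
    show Commute (c2 q1 s1 m.1 * c2 q2 s2 m.2) (c2 q3 s3 n.1 * c2 q4 s4 n.2)
    exact ((c2_comm s1 s3 h13 _ _).mul_right (c2_comm s1 s4 h14 _ _)).mul_left
      ((c2_comm s2 s3 h23 _ _).mul_right (c2_comm s2 s4 h24 _ _)))
  have v1 : (1 : ZMod 2).val = 1 := rfl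
  have hφ : ∀ m : (V × V) × (V × V), φ m = q1 ^ (Multiplicative.toAdd m.1.1).val * q2 ^ (Multiplicative.toAdd m.1.2).val *
      (q3 ^ (Multiplicative.toAdd m.2.1).val * q4 ^ (Multiplicative.toAdd m.2.2).val) := fun m => rfl
  have hval : ∀ m : V, (Multiplicative.toAdd m).val < 2 := fun m => ZMod.val_lt _
  have hz : ∀ m : V, (Multiplicative.toAdd m).val = 0 → m = 1 := by
    intro m h
    exact Multiplicative.toAdd.injective ((ZMod.val_eq_zero _).1 h)
  have hall : ∀ m : (V × V) × (V × V), m ≠ 1 → ¬ ((Multiplicative.toAdd m.1.1).val = 0 ∧ (Multiplicative.toAdd m.1.2).val = 0 ∧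
      (Multiplicative.toAdd m.2.1).val = 0 ∧ (Multiplicative.toAdd m.2.2).val = 0) := by
    rintro ⟨⟨a, b⟩, ⟨c, d⟩⟩ hm ⟨h1, h2, h3, h4⟩
    apply hm
    have := hz _ h1
    have := hz _ h2
    have := hz _ h3
    have := hz _ h4
    simp only at *
    subst_vars
    rfl
  have hinj : Function.Injective φ := by
    rw [injective_iff_map_eq_one]
    intro m hm
    by_contra h1
    exact hne _ _ _ _ (hval m.1.1) (hval m.1.2) (hval m.2.1) (hval m.2.2) (hall m h1) (by rw [← hφ]; exact hm)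
  have hfin : Finite φ.range := Finite.of_surjective φ.rangeRestrict φ.rangeRestrict_surjective
  have hcard : Nat.card φ.range = 16 := by
    rw [← Nat.card_congr (MonoidHom.ofInjective hinj).toEquiv, Nat.card_prod, Nat.card_prod]
    have : Nat.card V = 2 := by
      show Nat.card (ZMod 2) = 2
      rw [Nat.card_zmod]
    rw [this]
  have hsq : ∀ u ∈ φ.range, u * u = 1 := by
    rintro _ ⟨m, rfl⟩
    rw [← map_mul]
    have : m * m = 1 := by
      revert m
      decide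
    rw [this, map_one]
  -- action of `x`
  let A : (V × V) × (V × V) →* (V × V) × (V × V) :=
    { toFun := fun m => ((m.1.2, m.1.1 * m.1.2), (m.2.2, m.2.1 * m.2.2))
      map_one' := rfl
      map_mul' := by decide }
  have hA : ∀ m, x * φ m * x⁻¹ = φ (A m) := by
    have : ((MulAut.conj x).toMonoidHom.comp φ) = φ.comp A := by
      apply MonoidHom.ext
      rintro ⟨⟨a, b⟩, ⟨c, d⟩⟩
      show x * φ ((a, b), (c, d)) * x⁻¹ = φ ((b, a * b), (d, c * d))
      have e1 : ((a, b), (c, d)) = (((a, 1), (1, 1)) * ((1, b), (1, 1)) * ((1, 1), (c, 1)) * ((1, 1), (1, d)) :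
          (V × V) × (V × V)) := by simp
      have e2 : ((b, a * b), (d, c * d)) = (((1, a), (1, 1)) * ((b, b), (1, 1)) * ((1, 1), (1, c)) * ((1, 1), (d, d)) :
          (V × V) × (V × V)) := by simp
      rw [e1, e2, map_mul, map_mul, map_mul, map_mul, map_mul, map_mul]
      have k1 : x * φ ((a, 1), (1, 1)) * x⁻¹ = φ ((1, a), (1, 1)) := by
        have ha : a = 1 ∨ a = Multiplicative.ofAdd 1 := two_cases a
        rcases ha with rfl | rfl
        · rw [show (((1, 1), (1, 1)) : (V × V) × (V × V)) = 1 from rfl, map_one]; group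
        · simpa [hφ, v1] using x1
      have k2 : x * φ ((1, b), (1, 1)) * x⁻¹ = φ ((b, b), (1, 1)) := by
        have hb : b = 1 ∨ b = Multiplicative.ofAdd 1 := two_cases b
        rcases hb with rfl | rfl
        · rw [show (((1, 1), (1, 1)) : (V × V) × (V × V)) = 1 from rfl, map_one]; group
        · simpa [hφ, v1] using x2
      have k3 : x * φ ((1, 1), (c, 1)) * x⁻¹ = φ ((1, 1), (1, c)) := by
        have hc : c = 1 ∨ c = Multiplicative.ofAdd 1 := two_cases c
        rcases hc with rfl | rfl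
        · rw [show (((1, 1), (1, 1)) : (V × V) × (V × V)) = 1 from rfl, map_one]; group
        · simpa [hφ, v1] using x3
      have k4 : x * φ ((1, 1), (1, d)) * x⁻¹ = φ ((1, 1), (d, d)) := by
        have hd : d = 1 ∨ d = Multiplicative.ofAdd 1 := two_cases d
        rcases hd with rfl | rfl
        · rw [show (((1, 1), (1, 1)) : (V × V) × (V × V)) = 1 from rfl, map_one]; group
        · simpa [hφ, v1] using x4
      rw [← k1, ← k2, ← k3, ← k4]
      group
    intro m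
    exact DFunLike.congr_fun this m
  have key := FB.fpf φ.range hsq (by
      rintro _ ⟨m, rfl⟩
      rw [hA]
      exact ⟨_, rfl⟩) (by
      rintro _ ⟨m, rfl⟩
      rw [hA, hA, ← map_mul, ← map_mul]
      have : m * A m * A (A m) = 1 := by
        revert m
        decide
      rw [this, map_one]) (b := b) (by
      rintro _ ⟨m, rfl⟩ hm
      have hm1 : m ≠ 1 := by rintro rfl; exact hm (map_one _)
      rw [hφ]
      exact hb _ _ _ _ (hval _) (hval _) (hval _) (hval _) (hall m hm1))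
  rw [hcard] at key
  refine key.mono (le_of_eq ?_)
  push_cast
  ring

end fpf

section FBA

variable {S : Type} [Group S]

/-- from `S`-sets to `G`-sets, odd primes -/
theorem FBA.of_FB (hsq : SqInner S) {p : ℕ} (hp : p.Prime) (hp2 : p ≠ 2) {b : ℚ}
    (h : ∀ x : S, x ^ p = 1 → x ≠ 1 → FB S x b) : FBA S p b := by
  intro G _ _ Ω _ _ _ N hE e x hx hx1
  have hxN := prime_mem hE e hsq hp hp2 hx
  let f : S →* G := N.subtype.comp e.symm.toMonoidHom
  let _ : MulAction S Ω := MulAction.compHom Ω f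
  have hsm : ∀ (s : S) (ω : Ω), s • ω = ((e.symm s : N) : G) • ω := fun s ω => rfl
  have hE' : Env S Ω (⊤ : Subgroup S) :=
    { norm := inferInstance
      simple := isSimple_cgr0 (e.trans Subgroup.topEquiv.symm) hE.simple
      ncomm := fun hcom => hE.ncomm ⟨⟨fun a c => by
        have h1 : (⟨e a, trivial⟩ : (⊤ : Subgroup S)) * ⟨e c, trivial⟩ = ⟨e c, trivial⟩ * ⟨e a, trivial⟩ :=
          hcom.is_comm.comm _ _
        have h2 : e a * e c = e c * e a := congrArg Subtype.val h1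
        rw [← map_mul, ← map_mul] at h2
        exact e.injective h2⟩⟩
      cent := by
        rw [eq_bot_iff]
        intro s hs
        have h1 : ((e.symm s : N) : G) ∈ centralizer (N : Set G) := by
          rw [mem_centralizer_iff]
          intro g hg
          have h2 := mem_centralizer_iff.1 hs (e ⟨g, hg⟩) trivial
          have h3 := congrArg (fun t => ((e.symm t : N) : G)) h2
          simpa using h3
        rw [hE.cent, mem_bot] at h1
        rw [mem_bot]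
        have h2 : e.symm s = 1 := Subtype.ext h1
        have h3 := congrArg e h2
        simpa using h3
      nofix := fun ω hω => hE.nofix ω fun g hg => by
        have h1 := hω (show e ⟨g, hg⟩ ∈ (⊤ : Subgroup S) from trivial)
        have h2 : (e ⟨g, hg⟩) • ω = ω := h1
        rw [hsm, MulEquiv.symm_apply_apply] at h2
        exact h2 }
  have h1 := h (e ⟨x, hxN⟩) (by
    rw [← map_pow, show (⟨x, hxN⟩ : N) ^ p = 1 from Subtype.ext hx, map_one]) (fun h1 => hx1 (by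
      have h2 : (⟨x, hxN⟩ : N) = 1 := e.injective (by rw [h1, map_one])
      exact congrArg Subtype.val h2)) Ω hE'
  refine le_trans (le_of_eq ?_) h1
  unfold fpr
  congr 2
  refine Nat.card_congr (Equiv.subtypeEquivRight fun ω => ?_)
  show x • ω = ω ↔ (e ⟨x, hxN⟩) • ω = ω
  rw [hsm, MulEquiv.symm_apply_apply]

/-- involutions, with a bound for every prime -/
theorem FBA.two' (hsq : SqInner S) {b : ℚ} (β : ℕ → ℚ)
    (h : ∀ p : ℕ, p.Prime → p ≠ 2 → p ∣ Nat.card S → FBA S p (β p))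
    (hb : ∀ p : ℕ, p.Prime → p ≠ 2 → p ∣ Nat.card S → β p + 1 / p ≤ b) : FBA S 2 b := by
  intro G _ _ Ω _ _ _ N hE e z hz hz1
  obtain ⟨r, y, hr, hr2, hyN, hyr, hy1, -, hf⟩ := fpr_invol hsq hE e hz hz1
  have hrd : r ∣ Nat.card S := by
    rw [← Nat.card_congr e.toEquiv]
    have h1 : orderOf (⟨y, hyN⟩ : N) = r := by
      have := Fact.mk hr
      exact orderOf_eq_prime (Subtype.ext hyr) fun h' => hy1 (congrArg Subtype.val h')
    rw [← h1]
    exact orderOf_dvd_natCard _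
  exact (hf.trans (add_le_add_left (h r hr hr2 hrd G Ω N hE e y hyr hy1) _)).trans (hb r hr hr2 hrd)

end FBA

end Cfsg.Agent.H973.RG
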